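import Mathlib

/-!
# Sign characters: groups whose trace takes few values (helper890, S5719 `Co2`)

`s : ι → F →* ℤˣ`, 24 sign characters of a finite group `F`, `χ f = ∑ i, s i f`.
* `ineq_two`, `count_two` : if `χ f ∈ {0, 8}` for all `f ≠ 1`, with `m` trivial characters, then
  `(m² - 9 m + 24) |F| ≤ 384` (so `|F| ≤ 96`), and `24 + 8 #{f | χ f = 8} = m |F|`;
* `card_dvd_zero` : if `χ f = 0` for all `f ≠ 1` then `|F|` divides 24.
-/

set_option autoImplicit false

namespace Cfsg.Agent.H890.IF.CoTwoCode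

open Finset

variable {F : Type*} [Group F] [Fintype F] {ι : Type*} [Fintype ι]

theorem sum_one (s : F →* ℤˣ) (h : s = 1) : ∑ f : F, ((s f : ℤˣ) : ℤ) = Fintype.card F := by
  subst h
  simp

theorem sum_ne (s : F →* ℤˣ) (h : s ≠ 1) : ∑ f : F, ((s f : ℤˣ) : ℤ) = 0 := by
  have h1 : ((Units.coeHom ℤ).comp s) ≠ 1 := by
    intro h2
    apply h
    ext f
    have := congrArg (fun u : F →* ℤ => u f) h2
    simpa using this
  exact sum_hom_units_eq_zero ((Units.coeHom ℤ).comp s) h1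

theorem sum_nonneg' (s : F →* ℤˣ) : 0 ≤ ∑ f : F, ((s f : ℤˣ) : ℤ) := by
  by_cases h : s = 1
  · rw [sum_one s h]
    exact Int.natCast_nonneg _
  · rw [sum_ne s h]

open Classical in
/-- the number of trivial characters -/
noncomputable def triv (s : ι → F →* ℤˣ) : Finset ι := univ.filter fun i => s i = 1

theorem sum_trace (s : ι → F →* ℤˣ) :
    ∑ f : F, ∑ i, ((s i f : ℤˣ) : ℤ) = (triv s).card * (Fintype.card F : ℤ) := by
  classical
  rw [sum_comm]
  have h1 : ∀ i, ∑ f : F, ((s i f : ℤˣ) : ℤ) = if s i = 1 then (Fintype.card F : ℤ) else 0 := by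
    intro i
    split_ifs with h
    · exact sum_one _ h
    · exact sum_ne _ h
  rw [sum_congr rfl fun i _ => h1 i, ← sum_filter, sum_const, nsmul_eq_mul]
  rfl

theorem sum_sq (s : ι → F →* ℤˣ) :
    ((triv s).card * (triv s).card + ((Fintype.card ι : ℤ) - (triv s).card)) * (Fintype.card F : ℤ) ≤
      ∑ f : F, (∑ i, ((s i f : ℤˣ) : ℤ)) * ∑ i, ((s i f : ℤˣ) : ℤ) := by
  classical
  have h1 : ∑ f : F, (∑ i, ((s i f : ℤˣ) : ℤ)) * ∑ i, ((s i f : ℤˣ) : ℤ) =
      ∑ i, ∑ j, ∑ f : F, (((s i * s j) f : ℤˣ) : ℤ) := by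
    have h2 : ∀ f : F, (∑ i, ((s i f : ℤˣ) : ℤ)) * ∑ i, ((s i f : ℤˣ) : ℤ) =
        ∑ i, ∑ j, (((s i * s j) f : ℤˣ) : ℤ) := by
      intro f
      rw [sum_mul_sum]
      refine sum_congr rfl fun i _ => sum_congr rfl fun j _ => ?_
      rw [MonoidHom.mul_apply, Units.val_mul]
    rw [sum_congr rfl fun f _ => h2 f, sum_comm]
    refine sum_congr rfl fun i _ => ?_
    rw [sum_comm]
  rw [h1]
  have key : ∀ i, (if s i = 1 then ((triv s).card : ℤ) * Fintype.card F else (Fintype.card F : ℤ)) ≤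
      ∑ j, ∑ f : F, (((s i * s j) f : ℤˣ) : ℤ) := by
    intro i
    split_ifs with h
    · have h3 : ((triv s).card : ℤ) * Fintype.card F = ∑ j ∈ triv s, ∑ f : F, (((s i * s j) f : ℤˣ) : ℤ) := by
        rw [← nsmul_eq_mul, ← sum_const]
        refine sum_congr rfl fun j hj => ?_
        have hj1 : s j = 1 := (mem_filter.1 hj).2
        rw [h, hj1, mul_one, sum_one _ rfl]
      rw [h3]
      exact sum_le_sum_of_subset_of_nonneg (subset_univ _) fun j _ _ => sum_nonneg' _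
    · have h3 : (Fintype.card F : ℤ) = ∑ f : F, (((s i * s i) f : ℤˣ) : ℤ) := by
        have h4 : s i * s i = 1 := by
          ext f
          rw [MonoidHom.mul_apply, ← pow_two, Int.units_sq]
          rfl
        rw [h4, sum_one _ rfl]
      rw [h3]
      exact single_le_sum (f := fun j => ∑ f : F, (((s i * s j) f : ℤˣ) : ℤ)) (fun j _ => sum_nonneg' _) (mem_univ i)
  refine le_trans (le_of_eq ?_) (sum_le_sum fun i _ => key i)
  rw [sum_ite, sum_const, sum_const, nsmul_eq_mul, nsmul_eq_mul]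
  have h5 : (univ.filter fun i => s i = 1) = triv s := by
    rw [triv]
  have h6 : ((univ.filter fun i => ¬ s i = 1).card : ℤ) = (Fintype.card ι : ℤ) - (triv s).card := by
    have := card_filter_add_card_filter_not (s := (univ : Finset ι)) (fun i => s i = 1)
    rw [h5, card_univ] at this
    omega
  rw [h5, h6]
  ring

/-- **Trace 0 or 8**: `m` characters are trivial. -/
theorem ineq_two (hι : Fintype.card ι = 24) (s : ι → F →* ℤˣ)
    (h : ∀ f : F, f ≠ 1 → (∑ i, ((s i f : ℤˣ) : ℤ)) = 0 ∨ (∑ i, ((s i f : ℤˣ) : ℤ)) = 8) :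
    ((triv s).card * (triv s).card - 9 * (triv s).card + 24 : ℤ) * (Fintype.card F : ℤ) ≤ 384 := by
  classical
  have h1 := sum_trace s
  have h2 := sum_sq s
  rw [hι] at h2
  have h3 : ∑ f : F, ((∑ i, ((s i f : ℤˣ) : ℤ)) * (∑ i, ((s i f : ℤˣ) : ℤ)) - 8 * ∑ i, ((s i f : ℤˣ) : ℤ)) = 384 := by
    rw [sum_eq_single (1 : F)]
    · simp [hι]
    · intro f _ hf
      rcases h f hf with h4 | h4 <;> rw [h4] <;> norm_num
    · intro h4
      exact absurd (mem_univ _) h4
  rw [sum_sub_distrib, ← mul_sum, h1] at h3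
  set m : ℤ := ((triv s).card : ℤ) with hm
  set c : ℤ := (Fintype.card F : ℤ) with hc
  have hc0 : 0 ≤ c := Int.natCast_nonneg _
  have h4 : (m * m + (24 - m)) * c - 8 * (m * c) ≤ 384 := by
    rw [← h3]
    push_cast at h2
    linarith
  have h7 : (m * m - 9 * m + 24) * c = (m * m + (24 - m)) * c - 8 * (m * c) := by ring
  rw [h7]
  exact h4

open Classical in
/-- the number of elements of trace 8 -/
theorem count_two (hι : Fintype.card ι = 24) (s : ι → F →* ℤˣ)
    (h : ∀ f : F, f ≠ 1 → (∑ i, ((s i f : ℤˣ) : ℤ)) = 0 ∨ (∑ i, ((s i f : ℤˣ) : ℤ)) = 8) :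
    (24 : ℤ) + 8 * ((univ.filter fun f : F => (∑ i, ((s i f : ℤˣ) : ℤ)) = 8).card : ℤ) =
      (triv s).card * (Fintype.card F : ℤ) := by
  rw [← sum_trace s, ← sum_erase_add (univ : Finset F) _ (mem_univ 1)]
  have h1 : ∑ i, ((s i (1 : F) : ℤˣ) : ℤ) = 24 := by simp [hι]
  rw [h1]
  have h2 : (univ.filter fun f : F => (∑ i, ((s i f : ℤˣ) : ℤ)) = 8) =
      (univ.erase (1 : F)).filter fun f : F => (∑ i, ((s i f : ℤˣ) : ℤ)) = 8 := by
    ext f
    simp only [mem_filter, mem_univ, true_and, mem_erase, and_true]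
    constructor
    · intro h3
      refine ⟨?_, h3⟩
      rintro rfl
      rw [h1] at h3
      norm_num at h3
    · exact fun h3 => h3.2
  rw [h2]
  have h3 : ∑ f ∈ univ.erase (1 : F), ∑ i, ((s i f : ℤˣ) : ℤ) =
      ∑ f ∈ univ.erase (1 : F), if (∑ i, ((s i f : ℤˣ) : ℤ)) = 8 then (8 : ℤ) else 0 := by
    refine sum_congr rfl fun f hf => ?_
    rcases h f (mem_erase.1 hf).1 with h4 | h4 <;> rw [h4] <;> norm_num
  rw [h3, ← sum_filter, sum_const, nsmul_eq_mul]
  ring

/-- **Trace 0**: the order divides 24. -/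
theorem card_dvd_zero (hι : Fintype.card ι = 24) (s : ι → F →* ℤˣ)
    (h : ∀ f : F, f ≠ 1 → (∑ i, ((s i f : ℤˣ) : ℤ)) = 0) : Fintype.card F ∣ 24 := by
  classical
  have h1 := sum_trace s
  have h3 : ∑ f : F, ∑ i, ((s i f : ℤˣ) : ℤ) = 24 := by
    rw [sum_eq_single (1 : F)]
    · simp [hι]
    · intro f _ hf
      exact h f hf
    · intro h4
      exact absurd (mem_univ _) h4
  rw [h3] at h1
  have h4 : (24 : ℕ) = (triv s).card * Fintype.card F := by exact_mod_cast h1
  exact ⟨(triv s).card, by rw [h4]; ring⟩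

end Cfsg.Agent.H890.IF.CoTwoCode
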