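import Cfsg.Agent.H129.IF.Abs
import Cfsg.Agent.H890.IF.CoTwoCode
import Cfsg.Agent.Co2Type.FactsCo2
import Cfsg.Agent.Schreier.CoTwoStab

/-!
# S5719, cell `co2`: a point stabiliser without 2A involutions contains no 2B and no 2C involution (helper890)

`E = 2¹⁰` consists of sign changes; the trace `χ` (degree 24) is `-8, 8, 0` on 2A, 2B, 2C.
* 2B: `X = A ∩ E` has traces 0, 8 only; `(m² - 9 m + 24) |X| ≤ 384`, `24 + 8 N = m |X|`, and
  `f⁵ N < |2B| ≤ 15369750`, `f ≥ 1024 / |X|`: impossible.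
* 2C: `|X|` divides 24, so `f ≥ 128`, `f⁵ < |2C| ≤ |Co₂| / 2¹⁵`: impossible.
-/

set_option autoImplicit false

namespace Cfsg.Agent.H890.IF.CoTwoBC

open Subgroup Cfsg Cfsg.Agent.SporadicA.GolayBase Cfsg.Agent.SporadicA.GolayPerm
open Cfsg.Agent.SporadicStructure.M24El
open Cfsg.Agent.Co2Type.Mono Cfsg.Agent.Co2Type.TData Cfsg.Agent.Co2Type.TGroup Cfsg.Agent.Co2Type.FactsD
open Cfsg.Agent.Co2Type.FactsCo2 (ge_inj tr_eq_iff tr_eq_iff_B tr_eq_iff_C tr_cases)
open Cfsg.Agent.H209.Fxy Cfsg.Agent.H129.IFE Cfsg.Agent.H999.IFB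

theorem fin : Finite Spor.Co2 := Schreier.CoTwoStab.finite

theorem simple : IsSimpleGroup Spor.Co2 := Schreier.CoTwoStab.isSimpleGroup

theorem card_co2 : Nat.card Spor.Co2 = 42305421312000 := Schreier.CoTwoStab.card

theorem hna : ∃ a b : Spor.Co2, a * b ≠ b * a := by
  by_contra h
  push Not at h
  exact Schreier.CoTwoStab.not_comm ⟨⟨h⟩⟩

/-! ### the signs on `E` -/

theorem ex_mask (g : E) : ∃ m, inE m = true ∧ (g : Spor.Co2) = ge m := g.2

/-- the mask of an element of `E` -/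
noncomputable def mk (g : E) : ℕ := (ex_mask g).choose

theorem mk_in (g : E) : inE (mk g) = true := (ex_mask g).choose_spec.1

theorem mk_eq (g : E) : (g : Spor.Co2) = ge (mk g) := (ex_mask g).choose_spec.2

theorem mk_one : mk 1 = 0 := by
  apply ge_inj (mk_in 1) inE_zero
  rw [← mk_eq, ge_zero]
  rfl

theorem mk_mul (g h : E) : mk (g * h) = mk g ^^^ mk h := by
  apply ge_inj (mk_in _) (inE_xor (mk_in g) (mk_in h))
  rw [← mk_eq, ← ge_mul (mk_in g) (mk_in h), ← mk_eq, ← mk_eq]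
  rfl

/-- the sign at a coordinate -/
noncomputable def sg (i : GolayPt) : E →* ℤˣ where
  toFun g := if (mk g).testBit (idx i) then -1 else 1
  map_one' := by rw [mk_one]; simp
  map_mul' g h := by
    rw [mk_mul, Nat.testBit_xor]
    cases (mk g).testBit (idx i) <;> cases (mk h).testBit (idx i) <;> simp

theorem sum_sg (g : E) : ∑ i, ((sg i g : ℤˣ) : ℤ) = tr (g : Spor.Co2) := by
  have h1 : tr (g : Spor.Co2) = 24 - 2 * (popcount (mk g) : ℤ) := by
    rw [mk_eq g]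
    exact Cfsg.Agent.Co2Type.FactsClass.tr_E (mk_in g)
  have h2 : ∀ i, ((sg i g : ℤˣ) : ℤ) = 1 - 2 * (if (mk g).testBit (idx i) then (1 : ℤ) else 0) := by
    intro i
    show (((if (mk g).testBit (idx i) then -1 else 1 : ℤˣ)) : ℤ) = _
    cases (mk g).testBit (idx i) <;> simp
  rw [h1, Finset.sum_congr rfl fun i _ => h2 i, Finset.sum_sub_distrib, ← Finset.mul_sum, sum_testBit]
  have h3 : Fintype.card GolayPt = 24 := by decide +kernel
  simp [h3]

theorem cardPt : Fintype.card GolayPt = 24 := by decide +kernel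

/-! ### the centralizers -/

theorem index_v : (centralizer ({ge mv} : Set Spor.Co2)).index ≤ 1291059000 := by
  have := fin
  have h1 := (centralizer ({ge mv} : Set Spor.Co2)).index_mul_card
  have h2 : Nat.card (Co2Type.Facts.cent T (ge mv)) ≤ Nat.card (centralizer ({ge mv} : Set Spor.Co2)) :=
    Nat.card_le_card_of_injective _ (inclusion_injective inf_le_right)
  rw [cardv] at h2
  rw [card_co2] at h1
  by_contra h3
  push Not at h3
  have h4 : 1291059001 * 2 ^ 15 ≤ (centralizer ({ge mv} : Set Spor.Co2)).index *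
      Nat.card (centralizer ({ge mv} : Set Spor.Co2)) := Nat.mul_le_mul h3 h2
  omega

/-- powers of a permutation code -/
def pp (P : ℕ) : ℕ → ℕ
  | 0 => idP
  | k + 1 => pcomp (pp P k) P

theorem okP_pp {P : ℕ} (hP : okP P = true) (k : ℕ) : okP (pp P k) = true := by
  induction k with
  | zero => exact okP_idP
  | succ k ih => exact okP_pcomp ih hP

theorem pow_mo {P : ℕ} (hP : okP P = true) (k : ℕ) : mo2 0 P ^ k = mo2 0 (pp P k) := by
  induction k with
  | zero => rw [pow_zero]; exact mo2_one.symm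
  | succ k ih =>
    have h1 := okP_pp hP k
    rw [pow_succ, ih, mo2_mul inE_zero inE_zero h1 hP, pimg_zero (ok_iff.1 (ok_of_okP h1)).1, Nat.xor_self]
    rfl

theorem order_mo {P p : ℕ} (hp : p.Prime) (hP : okP P = true) (h1 : Nat.beq (pp P p) idP = true)
    (h2 : P ≠ idP) (hlt : P < 2 ^ 120) : orderOf (mo2 0 P) = p := by
  have := Fact.mk hp
  apply orderOf_eq_prime
  · rw [pow_mo hP, Nat.eq_of_beq_eq_true h1, mo2_one]
  · intro h3
    rw [← mo2_one] at h3
    exact h2 (mo2_inj inE_zero inE_zero hP okP_idP hlt (by norm_num [idP]) h3).2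

theorem dvd_of {P p n : ℕ} (hp : p.Prime) (hn : inE n = true) (hP : okP P = true) (h1 : Nat.beq (pp P p) idP = true)
    (h2 : P ≠ idP) (hlt : P < 2 ^ 120) (h3 : pimg P n = n) (h4 : pcomp P idP = P) :
    p ∣ Nat.card (centralizer ({ge n} : Set Spor.Co2)) := by
  have h5 : mo2 0 P ∈ centralizer ({ge n} : Set Spor.Co2) := by
    rw [mem_centralizer_singleton_iff]
    unfold ge
    rw [mo2_mul inE_zero hn hP okP_idP, h3, h4, mo2_mul_left hn inE_zero hP, Nat.zero_xor, Nat.xor_zero]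
  have h6 := Subgroup.orderOf_dvd_natCard _ h5
  rwa [order_mo hp hP h1 h2 hlt] at h6

/-- order 3 -/
def P3 : ℕ := 984562182927573759658062217259128096
/-- order 7 -/
def P7 : ℕ := 961251275211232037747482513563524288

theorem three_dvd : 3 ∣ Nat.card (centralizer ({ge my} : Set Spor.Co2)) :=
  dvd_of (P := P3) Nat.prime_three iy (by decide +kernel) (by decide +kernel) (by decide +kernel) (by decide +kernel)
    (by decide +kernel) (by decide +kernel)

theorem seven_dvd : 7 ∣ Nat.card (centralizer ({ge my} : Set Spor.Co2)) :=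
  dvd_of (P := P7) (by norm_num) iy (by decide +kernel) (by decide +kernel) (by decide +kernel) (by decide +kernel)
    (by decide +kernel) (by decide +kernel)

theorem index_y : (centralizer ({ge my} : Set Spor.Co2)).index ≤ 15369750 := by
  have := fin
  have h1 := (centralizer ({ge my} : Set Spor.Co2)).index_mul_card
  have h2 : Nat.card (Co2Type.Facts.cent T (ge my)) ∣ Nat.card (centralizer ({ge my} : Set Spor.Co2)) :=
    card_dvd_of_le inf_le_right
  rw [cardy] at h2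
  rw [card_co2] at h1
  have h3 : 2 ^ 17 * 3 * 7 ∣ Nat.card (centralizer ({ge my} : Set Spor.Co2)) := by
    apply Nat.Coprime.mul_dvd_of_dvd_of_dvd (by norm_num)
    · exact Nat.Coprime.mul_dvd_of_dvd_of_dvd (by norm_num) h2 three_dvd
    · exact seven_dvd
  have h4 := Nat.le_of_dvd Nat.card_pos h3
  by_contra h5
  push Not at h5
  have h6 : 15369751 * (2 ^ 17 * 3 * 7) ≤ (centralizer ({ge my} : Set Spor.Co2)).index *
      Nat.card (centralizer ({ge my} : Set Spor.Co2)) := Nat.mul_le_mul h5 h4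
  omega

/-! ### the classes -/

variable {A : Subgroup Spor.Co2} {Γ : Subgroup (MulAut Spor.Co2)}

theorem E_le {m : ℕ} (hm : inE m = true) : ∀ b ∈ E, MulAut.conj (ge m) b = b := by
  intro b hb
  rw [MulAut.conj_apply, mul_inv_eq_iff_eq_mul]
  exact Co2Type.FactsD.E_comm _ (ge_mem hm) _ hb

theorem ge_ne {m : ℕ} (hm : inE m = true) (h : m ≠ 0) : ge m ≠ 1 := by
  intro h1
  rw [← ge_zero] at h1
  exact h (ge_inj hm inE_zero h1)

theorem order_ge {m : ℕ} (hm : inE m = true) (h : m ≠ 0) : orderOf (ge m) = 2 :=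
  orderOf_eq_prime (by rw [pow_two]; exact ge_sq hm) (ge_ne hm h)

/-- `|A ∩ E| |E : A ∩ E| = 1024` and `|E : A ∩ E| ≤ f` -/
theorem basic (h : IF A Γ) {m : ℕ} (hm : inE m = true) (h0 : m ≠ 0) (hA : ge m ∈ A) :
    Nat.card ↥(A.subgroupOf E) * A.relIndex E = 1024 ∧ A.relIndex E ≤ fx A (MulAut.conj (ge m)) := by
  have := fin
  have := simple
  refine ⟨?_, ?_⟩
  · have h1 : Nat.card ↥(A.subgroupOf E) * A.relIndex E = Nat.card E := (A.subgroupOf E).card_mul_index
    rw [h1, Co2Type.TCard.card_E]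
    norm_num
  · refine (IF.E1 h ((h.conj _).2 hA) ?_ (E_le hm)).1
    rw [orderOf_conj hna]
    exact order_ge hm h0

theorem tr_mem (h2A : ∀ s ∈ A, ¬ IsConj (ge mz) s) (x : ↥(A.subgroupOf E)) (hx : x ≠ 1) :
    tr ((x : ↥E) : Spor.Co2) = 0 ∨ tr ((x : ↥E) : Spor.Co2) = 8 := by
  have hA : ((x : ↥E) : Spor.Co2) ∈ A := x.2
  have h1 : ((x : ↥E) : Spor.Co2) * ((x : ↥E) : Spor.Co2) = 1 := Co2Type.FactsD.E_sq _ (x : ↥E).2
  have h2 : ((x : ↥E) : Spor.Co2) ≠ 1 := fun h3 => hx (Subtype.ext (Subtype.ext h3))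
  rcases tr_cases h1 h2 with h3 | h3 | h3
  · exact absurd ((tr_eq_iff h1).2 h3) (h2A _ hA)
  · exact Or.inr h3
  · exact Or.inl h3

theorem core_C (h : IF A Γ) (h2A : ∀ s ∈ A, ¬ IsConj (ge mz) s) (h2B : ∀ s ∈ A, ¬ IsConj (ge my) s)
    (hA : ge mv ∈ A) : False := by
  classical
  have := fin
  have := simple
  have v0 : mv ≠ 0 := by decide +kernel
  obtain ⟨h1, h2⟩ := basic h iv v0 hA
  have h3 := count hna h hA (order_ge iv v0)
  have h4 : 0 < (cl (ge mv) A).ncard := (Set.ncard_pos (Set.toFinite _)).2 ⟨ge mv, hA, IsConj.refl _⟩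
  have h5 := index_v
  let _ : Fintype ↥(A.subgroupOf E) := Fintype.ofFinite _
  have h6 : Fintype.card ↥(A.subgroupOf E) ∣ 24 := by
    refine CoTwoCode.card_dvd_zero cardPt (fun i => (sg i).comp (A.subgroupOf E).subtype) fun x hx => ?_
    show ∑ i, ((sg i (x : ↥E) : ℤˣ) : ℤ) = 0
    rw [sum_sg]
    rcases tr_mem h2A x hx with h7 | h7
    · exact h7
    · exfalso
      have h8 : ((x : ↥E) : Spor.Co2) * ((x : ↥E) : Spor.Co2) = 1 := Co2Type.FactsD.E_sq _ (x : ↥E).2
      exact h2B _ x.2 ((tr_eq_iff_B h8).2 h7)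
  rw [← Nat.card_eq_fintype_card] at h6
  have h7 : Nat.card ↥(A.subgroupOf E) ∣ 8 := by
    have h8 : Nat.card ↥(A.subgroupOf E) ∣ Nat.gcd 24 1024 := Nat.dvd_gcd h6 ⟨_, h1.symm⟩
    have h9 : Nat.gcd 24 1024 = 8 := by norm_num
    rwa [h9] at h8
  have h8 : Nat.card ↥(A.subgroupOf E) ≤ 8 := Nat.le_of_dvd (by norm_num) h7
  have h9 : 128 ≤ fx A (MulAut.conj (ge mv)) := by
    refine le_trans ?_ h2
    by_contra h10
    push Not at h10
    have := Nat.mul_le_mul h8 (Nat.le_of_lt_succ h10)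
    omega
  have h10 : 128 ^ 5 ≤ fx A (MulAut.conj (ge mv)) ^ 5 := Nat.pow_le_pow_left h9 5
  have h11 : 128 ^ 5 * 1 ≤ fx A (MulAut.conj (ge mv)) ^ 5 * (cl (ge mv) A).ncard := Nat.mul_le_mul h10 h4
  omega

theorem core_B (h : IF A Γ) (h2A : ∀ s ∈ A, ¬ IsConj (ge mz) s) (hA : ge my ∈ A) : False := by
  classical
  have := fin
  have := simple
  have v0 : my ≠ 0 := by decide +kernel
  obtain ⟨h1, h2⟩ := basic h iy v0 hA
  have h3 := count hna h hA (order_ge iy v0)
  have h5 := index_y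
  let _ : Fintype ↥(A.subgroupOf E) := Fintype.ofFinite _
  set s : GolayPt → ↥(A.subgroupOf E) →* ℤˣ := fun i => (sg i).comp (A.subgroupOf E).subtype with hs
  have hsum : ∀ x : ↥(A.subgroupOf E), ∑ i, ((s i x : ℤˣ) : ℤ) = tr ((x : ↥E) : Spor.Co2) := fun x => sum_sg (x : ↥E)
  have hval : ∀ x : ↥(A.subgroupOf E), x ≠ 1 → (∑ i, ((s i x : ℤˣ) : ℤ)) = 0 ∨ (∑ i, ((s i x : ℤˣ) : ℤ)) = 8 := by
    intro x hx
    rw [hsum]
    exact tr_mem h2A x hx
  have h6 := CoTwoCode.ineq_two cardPt s hval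
  have h7 := CoTwoCode.count_two cardPt s hval
  set J := Finset.univ.filter fun x : ↥(A.subgroupOf E) => (∑ i, ((s i x : ℤˣ) : ℤ)) = 8 with hJ
  have h8 : J.card ≤ (cl (ge my) A).ncard := by
    rw [← Set.ncard_coe_finset]
    refine Set.ncard_le_ncard_of_injOn (fun x : ↥(A.subgroupOf E) => ((x : ↥E) : Spor.Co2)) ?_ ?_ (Set.toFinite _)
    · intro x hx
      have h9 : (∑ i, ((s i x : ℤˣ) : ℤ)) = 8 := (Finset.mem_filter.1 (Finset.mem_coe.1 hx)).2
      rw [hsum] at h9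
      have h10 : ((x : ↥E) : Spor.Co2) * ((x : ↥E) : Spor.Co2) = 1 := Co2Type.FactsD.E_sq _ (x : ↥E).2
      exact ⟨x.2, (tr_eq_iff_B h10).2 h9⟩
    · intro x _ y _ hxy
      exact Subtype.ext (Subtype.ext hxy)
  have h9 : 1 ≤ J.card := by
    refine Finset.card_pos.2 ⟨⟨⟨ge my, ge_mem iy⟩, hA⟩, Finset.mem_filter.2 ⟨Finset.mem_univ _, ?_⟩⟩
    rw [hsum]
    exact tr_y
  rw [← Nat.card_eq_fintype_card] at h6 h7
  generalize Nat.card ↥(A.subgroupOf E) = c at h1 h6 h7
  generalize A.relIndex E = n at h1 h2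
  generalize fx A (MulAut.conj (ge my)) = f at h2 h3
  generalize (cl (ge my) A).ncard = M at h3 h8
  generalize (CoTwoCode.triv s).card = m at h6 h7
  generalize J.card = N at h7 h8 h9
  generalize (centralizer ({ge my} : Set Spor.Co2)).index = q at h3 h5
  have h10 : (4 : ℤ) ≤ (m : ℤ) * m - 9 * m + 24 := by
    rcases le_or_gt (m : ℤ) 4 with h11 | h11
    · nlinarith
    · nlinarith
  have h11 : c ≤ 96 := by
    have : (4 : ℤ) * c ≤ 384 := le_trans (mul_le_mul_of_nonneg_right h10 (Int.natCast_nonneg _)) h6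
    omega
  have h12 : c ∣ 1024 := ⟨n, h1.symm⟩
  have h13 : c = 64 ∨ c ≤ 32 := by
    have h14 : c ∈ Nat.divisors 1024 := Nat.mem_divisors.2 ⟨h12, by norm_num⟩
    have h15 : Nat.divisors 1024 = {1, 2, 4, 8, 16, 32, 64, 128, 256, 512, 1024} := by decide +kernel
    rw [h15] at h14
    simp only [Finset.mem_insert, Finset.mem_singleton] at h14
    omega
  rcases h13 with rfl | h13
  · have hn : n = 16 := by omega
    subst hn
    have h14 : (3 : ℤ) ≤ m := by
      by_contra h15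
      push Not at h15
      push_cast at h6
      nlinarith
    have h15 : 21 ≤ N := by
      push_cast at h7
      omega
    have h16 : 16 ^ 5 ≤ f ^ 5 := Nat.pow_le_pow_left h2 5
    have h17 : 16 ^ 5 * 21 ≤ f ^ 5 * M := Nat.mul_le_mul h16 (h15.trans h8)
    omega
  · have h14 : 32 ≤ f := by
      refine le_trans ?_ h2
      by_contra h15
      push Not at h15
      have := Nat.mul_le_mul h13 (Nat.le_of_lt_succ h15)
      omega
    have h16 : 32 ^ 5 ≤ f ^ 5 := Nat.pow_le_pow_left h14 5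
    have h17 : 32 ^ 5 * 1 ≤ f ^ 5 * M := Nat.mul_le_mul h16 (h9.trans h8)
    omega

theorem trans {w : Spor.Co2} (g : Spor.Co2) (h2 : ∀ s ∈ A, ¬ IsConj w s) :
    ∀ s ∈ A.map (MulAut.conj g).toMonoidHom, ¬ IsConj w s := by
  rintro _ ⟨s, hs, rfl⟩ hc
  refine h2 s hs (hc.trans (isConj_iff.2 ⟨g⁻¹, ?_⟩))
  rw [MulEquiv.coe_toMonoidHom, MulAut.conj_apply]
  group

/-- **No 2B involution.** -/
theorem no_2B (h : IF A Γ) (h2A : ∀ s ∈ A, ¬ IsConj (ge mz) s) {s : Spor.Co2} (hs : s ∈ A)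
    (hc : IsConj (ge my) s) : False := by
  obtain ⟨g, hg⟩ := isConj_iff.1 hc.symm
  refine core_B (h.map (MulAut.conj g)) (trans g h2A) ⟨s, hs, ?_⟩
  rw [MulEquiv.coe_toMonoidHom, MulAut.conj_apply]
  exact hg

/-- **No 2C involution.** -/
theorem no_2C (h : IF A Γ) (h2A : ∀ s ∈ A, ¬ IsConj (ge mz) s) {s : Spor.Co2} (hs : s ∈ A)
    (hc : IsConj (ge mv) s) : False := by
  obtain ⟨g, hg⟩ := isConj_iff.1 hc.symm
  refine core_C (h.map (MulAut.conj g)) (trans g h2A) (trans g fun x hx hxc => no_2B h h2A hx hxc) ⟨s, hs, ?_⟩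
  rw [MulEquiv.coe_toMonoidHom, MulAut.conj_apply]
  exact hg

/-- **`KillE` from 2A.** -/
theorem killE_of (hz : ∀ (A : Subgroup Spor.Co2) (Γ : Subgroup (MulAut Spor.Co2)), IF A Γ →
    ∀ s ∈ A, ¬ IsConj (ge mz) s) : KillE Spor.Co2 := by
  rintro A Γ h ⟨t, ht, h2⟩
  have h1 : t * t = 1 := by rw [← pow_two, ← h2, pow_orderOf_eq_one]
  have h3 : t ≠ 1 := by
    rintro rfl
    rw [orderOf_one] at h2
    omega
  rcases tr_cases h1 h3 with h4 | h4 | h4
  · exact hz A Γ h t ht ((tr_eq_iff h1).2 h4)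
  · exact no_2B h (hz A Γ h) ht ((tr_eq_iff_B h1).2 h4)
  · exact no_2C h (hz A Γ h) ht ((tr_eq_iff_C h1).2 h4)

end Cfsg.Agent.H890.IF.CoTwoBC
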