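import Cfsg.Agent.CTwoTab.Fi22
import Cfsg.Agent.S2150

/-!
# S5719, `Fi22`, class 2B: a subgroup of small index of `C(a) ∩ C(b)` (helper890)

`pair_le` : `a`, `b` different commuting transpositions of `Fi22`, `a b ∈ A`, `|P : P ∩ A| ≤ 26` for `P = C(a) ∩ C(b)`:
then `P ≤ A`.
(`P / R = U4(2)` has no proper subgroup of index `< 27`, so `P = (A ∩ P) R`; `A ∩ R` is normalised by `P` and has index
`≤ 26` in `R`, so `A ∩ R = R`.)
-/

set_option autoImplicit false

namespace Cfsg.Agent.H890.IF.FiTwoTwo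

open Subgroup Cfsg

theorem mem_pair {G : Type*} [Group G] {d d' g : G} :
    g ∈ centralizer ({d, d'} : Set G) ↔ g * d = d * g ∧ g * d' = d' * g := by
  rw [mem_centralizer_iff]
  constructor
  · intro h
    exact ⟨(h d (by simp)).symm, (h d' (by simp)).symm⟩
  · rintro ⟨h1, h2⟩ x hx
    rcases hx with rfl | hx
    · exact h1.symm
    · rw [Set.mem_singleton_iff] at hx
      rw [hx]
      exact h2.symm

theorem pair_eq {G : Type*} [Group G] (d d' : G) :
    centralizer ({d, d'} : Set G) = centralizer ({d} : Set G) ⊓ centralizer ({d'} : Set G) := by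
  ext g
  rw [mem_pair, mem_inf, mem_centralizer_singleton_iff, mem_centralizer_singleton_iff]

theorem core {K : Type} [Group K] [Finite K] {d d' : K} {R : Subgroup K} (F : KFacts.FiTT.Facts K d d' R)
    (A : Subgroup K) (hz : d * d' ∈ A) (h16 : A.relIndex (centralizer ({d, d'} : Set K)) ≤ 26) :
    centralizer ({d, d'} : Set K) ≤ A := by
  set P := centralizer ({d, d'} : Set K) with hP
  obtain ⟨F4, _, _, hF4, f, hf, hk⟩ := F.quoR
  -- `f (A ∩ P) = U4(2)`
  have h1 : (A.subgroupOf P).map f = ⊤ := by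
    by_contra hne
    have h2 := (Cfsg.Agent.S2150.result (F := F4) 2 (by rw [hF4]; norm_num) le_rfl).1 _ hne
    have h3 : ((A.subgroupOf P).map f).index ∣ (A.subgroupOf P).index := index_map_dvd _ hf
    have h4 : (A.subgroupOf P).index = A.relIndex P := rfl
    have h5 := Nat.le_of_dvd (Nat.pos_of_ne_zero index_ne_zero_of_finite) h3
    omega
  have key : ∀ p ∈ P, ∃ x ∈ A, x ∈ P ∧ x⁻¹ * p ∈ R := by
    intro p hp
    have h2 : f ⟨p, hp⟩ ∈ (A.subgroupOf P).map f := by rw [h1]; trivial
    obtain ⟨x, hx, hxp⟩ := h2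
    refine ⟨x, hx, x.2, ?_⟩
    have h3 : f (x⁻¹ * ⟨p, hp⟩) = 1 := by rw [map_mul, map_inv, hxp, inv_mul_cancel]
    exact (hk _).1 h3
  have hR : R ≤ P := F.R_le
  -- `A ∩ R` is normalised by `P`
  have hn : ∀ g, g * d = d * g → g * d' = d' * g → ∀ x ∈ A ⊓ R, g * x * g⁻¹ ∈ A ⊓ R := by
    intro g hg hg' x hx
    obtain ⟨y, hyA, hyP, hyR⟩ := key g (mem_pair.2 ⟨hg, hg'⟩)
    set r := y⁻¹ * g with hr
    have hgr : g = y * r := by rw [hr]; group
    have hrx : r * x * r⁻¹ ∈ A ⊓ R := by
      have h2 : r * x * r⁻¹ = r * x * r⁻¹ * x⁻¹ * x := by group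
      refine ⟨?_, R.mul_mem (R.mul_mem hyR hx.2) (R.inv_mem hyR)⟩
      rw [h2]
      rcases F.R_comm r hyR x hx.2 with h3 | h3
      · rw [h3, one_mul]
        exact hx.1
      · rw [h3]
        exact A.mul_mem hz hx.1
    have hy := mem_pair.1 hyP
    have hyz : y * (d * d') = d * d' * y := by
      calc y * (d * d') = y * d * d' := by group
        _ = d * (y * d') := by rw [hy.1]; group
        _ = d * d' * y := by rw [hy.2]; group
    have h4 : g * x * g⁻¹ = y * (r * x * r⁻¹) * y⁻¹ := by rw [hgr]; group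
    rw [h4]
    exact ⟨A.mul_mem (A.mul_mem hyA hrx.1) (A.inv_mem hyA), F.R_normal y hyz _ hrx.2⟩
  have hAR : R ≤ A := by
    rcases F.dich (A ⊓ R) inf_le_right hn with h2 | h2
    · rw [← h2]
      exact inf_le_left
    · exfalso
      have h3 : A.relIndex R ≤ A.relIndex P :=
        relIndex_le_of_le_right hR (by
          have : A.relIndex P = (A.subgroupOf P).index := rfl
          rw [this]
          exact index_ne_zero_of_finite)
      have h4 : Nat.card ↥(A.subgroupOf R) * A.relIndex R = Nat.card R := (A.subgroupOf R).card_mul_index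
      have h5 : Nat.card ↥(A.subgroupOf R) ≤ 4 := by
        classical
        have h6 : ∀ x : ↥(A.subgroupOf R), ((x : ↥R) : K) ∈ ({1, d, d', d * d'} : Finset K) := by
          intro x
          have := h2 ((x : ↥R) : K) ⟨x.2, (x : ↥R).2⟩
          simp only [Finset.mem_insert, Finset.mem_singleton]
          exact this
        have h7 : Function.Injective fun x : ↥(A.subgroupOf R) => (⟨((x : ↥R) : K), h6 x⟩ : ({1, d, d', d * d'} : Finset K)) := by
          intro x y hxy
          have h8 : ((x : ↥R) : K) = ((y : ↥R) : K) := by simpa using hxy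
          exact Subtype.ext (Subtype.ext h8)
        refine (Nat.card_le_card_of_injective _ h7).trans ?_
        rw [Nat.card_eq_fintype_card, Fintype.card_coe]
        exact Finset.card_le_four
      rw [F.R_card] at h4
      have h6 := Nat.mul_le_mul h5 (h3.trans h16)
      omega
  intro p hp
  obtain ⟨x, hxA, -, hxR⟩ := key p hp
  have h2 : p = x * (x⁻¹ * p) := by group
  rw [h2]
  exact A.mul_mem hxA (hAR hxR)

/-- **The isolated lemma of class 2B.** -/
theorem pair_le {a b : Spor.Fi22} (ha : a ∈ Cfsg.Agent.R01.Fi22Facts.T) (hb : b ∈ Cfsg.Agent.R01.Fi22Facts.T)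
    (hab : a ≠ b) (cab : a * b = b * a) (A : Subgroup Spor.Fi22) (hz : a * b ∈ A)
    (h16 : A.relIndex (centralizer ({a} : Set Spor.Fi22) ⊓ centralizer ({b} : Set Spor.Fi22)) ≤ 26) :
    centralizer ({a} : Set Spor.Fi22) ⊓ centralizer ({b} : Set Spor.Fi22) ≤ A := by
  have hfin : Finite Spor.Fi22 := Cfsg.Agent.CTwoTab.Fi22.finite
  obtain ⟨R, F⟩ := Cfsg.Agent.CTwoTab.Fi22.facts ha hb hab cab
  rw [← pair_eq] at h16 ⊢
  exact core F A hz h16

end Cfsg.Agent.H890.IF.FiTwoTwo
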